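import Groth.Prelude.Def_CAlg
import Mathlib.RingTheory.Regular.Flat
import Mathlib.RingTheory.Noetherian.Basic
import Mathlib.RingTheory.Ideal.MinimalPrime.Basic
import Mathlib.RingTheory.Flat.FaithfullyFlat.Algebra
import Mathlib.RingTheory.RingHom.Flat
import Mathlib.LinearAlgebra.TensorProduct.Quotient
import Mathlib.RingTheory.Ideal.AssociatedPrime.Finiteness
import Mathlib.RingTheory.Flat.EquationalCriterion
import Mathlib.RingTheory.Ideal.AssociatedPrime.Basic
import Mathlib.RingTheory.LocalRing.RingHom.Basic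

/-!
# Commutative algebra for the descent of effective Cartier divisors (depth at most one criterion)
-/

set_option autoImplicit false

namespace Groth.Agent.Ega4late.H532.Alg

open IsLocalRing RingTheory.Sequence

/-- An elementary form of: `u, v` is a (weakly) regular sequence of length two. -/
structure RegPair {R : Type*} [CommRing R] (u v : R) : Prop where
  reg : ∀ a, u * a = 0 → a = 0
  reg2 : ∀ a b, v * a = u * b → ∃ c, a = u * c

section Pair

variable {R : Type*} [CommRing R]

theorem regPair_of_isWeaklyRegular {u v : R} (h : IsWeaklyRegular R [u, v]) : RegPair u v := by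
  rw [isWeaklyRegular_cons_iff] at h
  obtain ⟨h1, h2⟩ := h
  rw [isWeaklyRegular_cons_iff] at h2
  refine ⟨fun a ha => ?_, fun a b hab => ?_⟩
  · apply h1
    simpa using ha
  · have h3 := h2.1
    have h4 : (Submodule.Quotient.mk a : QuotSMulTop u R) = 0 := by
      apply h3
      simp only [smul_zero]
      rw [← Submodule.Quotient.mk_smul, Submodule.Quotient.mk_eq_zero, smul_eq_mul, hab]
      exact Submodule.smul_mem_pointwise_smul b u ⊤ trivial
    rw [Submodule.Quotient.mk_eq_zero] at h4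
    obtain ⟨c, -, hc⟩ := h4
    exact ⟨c, by rw [← hc]; rfl⟩

/-- Depth at least two gives a regular sequence of length two in the maximal ideal. -/
theorem exists_isWeaklyRegular_pair [IsLocalRing R] (h : ¬ LocCoh.depth R R ≤ 1) :
    ∃ u ∈ maximalIdeal R, ∃ v ∈ maximalIdeal R, IsWeaklyRegular R [u, v] := by
  have hne : ¬ (maximalIdeal R • (⊤ : Submodule R R) = ⊤) := by
    rw [smul_eq_mul, Ideal.mul_top]
    exact Ideal.IsPrime.ne_top inferInstance
  rw [LocCoh.depth, LocCoh.idealDepth, if_neg hne] at h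
  simp only [iSup_le_iff, not_forall] at h
  obtain ⟨rs, ⟨h1, h2⟩, h3⟩ := h
  have h4 : 2 ≤ rs.length := by
    by_contra hlt
    apply h3
    have : rs.length ≤ 1 := by omega
    exact_mod_cast this
  match rs, h4 with
  | u :: v :: rs, _ =>
    refine ⟨u, h2 u (by simp), v, h2 v (by simp), ?_⟩
    rw [isWeaklyRegular_cons_iff, isWeaklyRegular_cons_iff] at h1
    rw [isWeaklyRegular_cons_iff, isWeaklyRegular_cons_iff]
    exact ⟨h1.1, h1.2.1, IsWeaklyRegular.nil _ _⟩

theorem regPair_map {S : Type*} [CommRing S] (φ : R →+* S) (hφ : φ.Flat) {u v : R}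
    (h : IsWeaklyRegular R [u, v]) : RegPair (φ u) (φ v) := by
  algebraize [φ]
  have : Module.Flat R S := hφ
  exact regPair_of_isWeaklyRegular (IsWeaklyRegular.of_flat (S := S) h)

theorem RegPair.mem_span {u v s b : R} (h : RegPair u v) (hs : s ∈ nonZeroDivisors R)
    (hu : u * b ∈ Ideal.span {s}) (hv : v * b ∈ Ideal.span {s}) : b ∈ Ideal.span {s} := by
  rw [Ideal.mem_span_singleton'] at hu hv ⊢
  obtain ⟨c, hc⟩ := hu
  obtain ⟨d, hd⟩ := hv
  have h1 : v * c = u * d := by
    have h2 : (v * c - u * d) * s = 0 := by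
      linear_combination v * hc - u * hd
    exact sub_eq_zero.1 ((mul_right_mem_nonZeroDivisors_eq_zero_iff hs).1 h2)
  obtain ⟨e, he⟩ := h.reg2 c d h1
  refine ⟨e, ?_⟩
  have h3 : u * (e * s - b) = 0 := by
    rw [he] at hc
    linear_combination hc
  exact sub_eq_zero.1 (h.reg _ h3)

theorem RegPair.mem_span_of_pow {u v s b : R} (h : RegPair u v) (hs : s ∈ nonZeroDivisors R)
    {I : Ideal R} (hu : u ∈ I) (hv : v ∈ I) (n : ℕ) (hn : ∀ a ∈ I ^ n, a * b ∈ Ideal.span {s}) :
    b ∈ Ideal.span {s} := by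
  induction n with
  | zero => simpa using hn 1 (by simp)
  | succ n ih =>
    apply ih
    intro a ha
    apply h.mem_span hs
    · rw [← mul_assoc]
      exact hn _ (by rw [pow_succ']; exact Ideal.mul_mem_mul hu ha)
    · rw [← mul_assoc]
      exact hn _ (by rw [pow_succ']; exact Ideal.mul_mem_mul hv ha)

end Pair

section Colon

variable {B : Type*} [CommRing B]

/-- The colon ideal `(K : b)`. -/
def colonIdeal (K : Ideal B) (b : B) : Ideal B := Submodule.comap (LinearMap.toSpanSingleton B B b) K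

theorem mem_colonIdeal {K : Ideal B} {b c : B} : c ∈ colonIdeal K b ↔ c * b ∈ K := Iff.rfl

/-- In a Noetherian ring, if every prime containing `J` contains `I` then a power of `I` lies
in `J`. -/
theorem exists_pow_le [IsNoetherianRing B] {I J : Ideal B}
    (h : ∀ Q : Ideal B, Q.IsPrime → J ≤ Q → I ≤ Q) : ∃ n : ℕ, I ^ n ≤ J := by
  apply Ideal.exists_pow_le_of_le_radical_of_fg _ (IsNoetherian.noetherian I)
  rw [Ideal.radical_eq_sInf]
  exact le_sInf fun Q hQ => h Q hQ.2 hQ.1

/-- If `b` lies in `K` locally at all primes other than the maximal ideal then `m ^ n * b ⊆ K`. -/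
theorem exists_pow_mul_mem [IsNoetherianRing B] [IsLocalRing B] {K : Ideal B} {b : B}
    (h : ∀ Q : Ideal B, Q.IsPrime → Q ≠ maximalIdeal B → ∃ c ∉ Q, c * b ∈ K) :
    ∃ n : ℕ, ∀ a ∈ maximalIdeal B ^ n, a * b ∈ K := by
  obtain ⟨n, hn⟩ := exists_pow_le (I := maximalIdeal B) (J := colonIdeal K b) (fun Q hQ hJQ => by
    by_contra hle
    obtain ⟨c, hc, hc'⟩ := h Q hQ (fun e => hle e.ge)
    exact hc (hJQ hc'))
  exact ⟨n, fun a ha => hn ha⟩

theorem mem_of_exists_pow [IsLocalRing B] {K : Ideal B} {b : B} (hb : b ∉ K) (n : ℕ)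
    (hn : ∀ a ∈ maximalIdeal B ^ n, a * b ∈ K) :
    ∃ c ∉ K, ∀ r ∈ maximalIdeal B, r * c ∈ K := by
  induction n generalizing b with
  | zero => exact absurd (by simpa using hn 1 (by simp)) hb
  | succ n ih =>
    by_cases h : ∀ r ∈ maximalIdeal B, r * b ∈ K
    · exact ⟨b, hb, h⟩
    · push Not at h
      obtain ⟨r, hr, hrb⟩ := h
      refine ih hrb fun a ha => ?_
      rw [← mul_assoc]
      exact hn _ (by rw [pow_succ]; exact Ideal.mul_mem_mul ha hr)

/-- Two principal ideals generated by nonzerodivisors which agree on the punctured spectrum but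
are different: the maximal ideal is associated to each of the proper ones. -/
theorem exists_socle [IsNoetherianRing B] [IsLocalRing B] {s t : B} (hs : s ∈ nonZeroDivisors B)
    (ht : t ∈ nonZeroDivisors B) (htm : t ∈ maximalIdeal B)
    (hne : Ideal.span {t} ≠ Ideal.span {s})
    (h1 : ∀ Q : Ideal B, Q.IsPrime → Q ≠ maximalIdeal B → ∃ c ∉ Q, c * t ∈ Ideal.span {s})
    (h2 : ∀ Q : Ideal B, Q.IsPrime → Q ≠ maximalIdeal B → ∃ c ∉ Q, c * s ∈ Ideal.span {t}) :
    ∃ c ∉ Ideal.span {t}, ∀ r ∈ maximalIdeal B, r * c ∈ Ideal.span {t} := by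
  obtain ⟨n, hn⟩ := exists_pow_mul_mem h1
  obtain ⟨m, hm⟩ := exists_pow_mul_mem h2
  by_cases hst : s ∈ Ideal.span {t}
  · obtain ⟨w, hw⟩ := Ideal.mem_span_singleton'.1 hst
    have hwnu : ¬ IsUnit w := by
      intro hwu
      apply hne
      rw [← hw, mul_comm]
      exact (Ideal.span_singleton_mul_right_unit hwu t).symm
    have hwreg : w ∈ nonZeroDivisors B := by
      rw [← hw] at hs
      exact (mul_mem_nonZeroDivisors.1 hs).1
    have h3 : ∀ a ∈ maximalIdeal B ^ n, a * 1 ∈ Ideal.span {w} := by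
      intro a ha
      obtain ⟨d, hd⟩ := Ideal.mem_span_singleton'.1 (hn a ha)
      rw [Ideal.mem_span_singleton']
      refine ⟨d, ?_⟩
      have : (d * w - a * 1) * t = 0 := by
        rw [← hw] at hd
        linear_combination hd
      exact sub_eq_zero.1 ((mul_right_mem_nonZeroDivisors_eq_zero_iff ht).1 this)
    have h4 : (1 : B) ∉ Ideal.span {w} := by
      rw [← Ideal.eq_top_iff_one, Ideal.span_singleton_eq_top]
      exact hwnu
    obtain ⟨b, hb, hb'⟩ := mem_of_exists_pow h4 n h3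
    obtain ⟨c, hc⟩ := Ideal.mem_span_singleton'.1 (hb' t htm)
    refine ⟨c, fun hct => hb ?_, fun r hr => ?_⟩
    · obtain ⟨c', hc'⟩ := Ideal.mem_span_singleton'.1 hct
      rw [Ideal.mem_span_singleton']
      refine ⟨c', ?_⟩
      have : (c' * w - b) * t = 0 := by
        rw [← hc'] at hc
        linear_combination hc
      exact sub_eq_zero.1 ((mul_right_mem_nonZeroDivisors_eq_zero_iff ht).1 this)
    · obtain ⟨d, hd⟩ := Ideal.mem_span_singleton'.1 (hb' r hr)
      rw [Ideal.mem_span_singleton']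
      refine ⟨d, ?_⟩
      have : (d * t - r * c) * w = 0 := by
        linear_combination t * hd - r * hc
      exact sub_eq_zero.1 ((mul_right_mem_nonZeroDivisors_eq_zero_iff hwreg).1 this)
  · exact mem_of_exists_pow hst m hm

end Colon

section Flat

variable {A B : Type*} [CommRing A] [CommRing B]

theorem exists_notMem_of_forall_prime (φ : A →+* B) (q : Ideal A) [q.IsPrime] (J : Ideal B)
    (h : ∀ Q : Ideal B, Q.IsPrime → Q.comap φ ≤ q → ¬ J ≤ Q) : ∃ c ∉ q, φ c ∈ J := by
  by_contra hcon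
  push Not at hcon
  have hdis : Disjoint (J : Set B) (q.primeCompl.map φ : Set B) := by
    rw [Set.disjoint_left]
    rintro _ hJ ⟨c, hc, rfl⟩
    exact hcon c hc hJ
  obtain ⟨Q, hQ, hJQ, hQd⟩ := Ideal.exists_le_prime_disjoint J _ hdis
  refine h Q hQ (fun a ha => ?_) hJQ
  by_contra haq
  exact Set.disjoint_left.1 hQd (show φ a ∈ (Q : Set B) from ha) ⟨a, haq, rfl⟩

/-- Flat base change for a nonzerodivisor modulo an ideal. -/
theorem mem_map_of_mul_mem (φ : A →+* B) (hφ : φ.Flat) (I : Ideal A) (w : A)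
    (hw : ∀ a, w * a ∈ I → a ∈ I) (b : B) (hb : φ w * b ∈ I.map φ) : b ∈ I.map φ := by
  algebraize [φ]
  have : Module.Flat A B := hφ
  have h1 : IsSMulRegular (A ⧸ I) w := by
    rw [isSMulRegular_iff_right_eq_zero_of_smul]
    intro x hx
    obtain ⟨a, rfl⟩ := Ideal.Quotient.mk_surjective x
    have hx' : Ideal.Quotient.mk I (w * a) = 0 := by
      rw [map_mul]
      exact hx
    rw [Ideal.Quotient.eq_zero_iff_mem] at hx' ⊢
    exact hw a hx'
  let e : TensorProduct A B (A ⧸ I) ≃ₗ[B] (B ⧸ I.map (algebraMap A B)) :=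
    (I.qoutMapEquivTensorQout B).symm
  have hbc : IsBaseChange B (e.toLinearMap.restrictScalars A ∘ₗ TensorProduct.mk A B (A ⧸ I) 1) :=
    IsBaseChange.of_equiv e (fun _ ↦ by simp)
  have h2 := h1.of_flat_of_isBaseChange hbc
  rw [isSMulRegular_iff_right_eq_zero_of_smul] at h2
  have h3 := h2 (Ideal.Quotient.mk _ b) (by
    change Ideal.Quotient.mk _ (algebraMap A B w * b) = 0
    rw [Ideal.Quotient.eq_zero_iff_mem]
    exact hb)
  rwa [Ideal.Quotient.eq_zero_iff_mem] at h3

theorem mem_map_of_pow_mul_mem (φ : A →+* B) (hφ : φ.Flat) (I : Ideal A) (w : A)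
    (hw : ∀ a, w * a ∈ I → a ∈ I) (b : B) (n : ℕ) (hb : φ w ^ n * b ∈ I.map φ) :
    b ∈ I.map φ := by
  induction n with
  | zero => simpa using hb
  | succ n ih =>
    apply ih
    apply mem_map_of_mul_mem φ hφ I w hw
    rwa [← mul_assoc, ← pow_succ']

theorem exists_nonassoc [IsNoetherianRing A] [IsLocalRing A] (I : Ideal A)
    (h : ∀ a, (∀ r ∈ maximalIdeal A, r * a ∈ I) → a ∈ I) :
    ∃ w ∈ maximalIdeal A, ∀ a, w * a ∈ I → a ∈ I := by
  by_contra hcon
  push Not at hcon
  have h1 : (maximalIdeal A : Set A) ⊆ ⋃ p ∈ associatedPrimes A (A ⧸ I), (p : Set A) := by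
    intro w hw
    obtain ⟨a, ha, ha'⟩ := hcon w hw
    rw [biUnion_associatedPrimes_eq_compl_regular]
    intro hreg
    apply ha'
    have : (Ideal.Quotient.mk I a) = 0 := by
      apply hreg
      simp only [smul_zero]
      change Ideal.Quotient.mk I (w * a) = 0
      rwa [Ideal.Quotient.eq_zero_iff_mem]
    rwa [Ideal.Quotient.eq_zero_iff_mem] at this
  rw [Ideal.subset_union_prime_finite (associatedPrimes.finite A (A ⧸ I)) ⊥ ⊥
    (fun p hp _ _ => hp.isPrime)] at h1
  obtain ⟨p, hp, hle⟩ := h1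
  rw [AssociatedPrimes.mem_iff, isAssociatedPrime_iff] at hp
  obtain ⟨hpp, x, hx⟩ := hp
  obtain ⟨a, rfl⟩ := Ideal.Quotient.mk_surjective x
  have hmem : ∀ r, r ∈ p ↔ r * a ∈ I := by
    intro r
    rw [hx, Submodule.mem_colon_singleton, Submodule.mem_bot, ← Ideal.Quotient.eq_zero_iff_mem]
    exact Iff.rfl
  have ha : a ∉ I := by
    intro ha
    apply hpp.ne_top
    rw [Ideal.eq_top_iff_one, hmem, one_mul]
    exact ha
  exact ha (h a fun r hr => (hmem r).1 (hle hr))

/-- **Key algebraic descent.** Let `A → B` be a flat local homomorphism of Noetherian local rings,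
`s` a nonzerodivisor of `B`, `u, v` a regular sequence of `m_A`. If the ideal `(s)` descends to
a principal ideal locally at all points of the punctured spectrum of `A` then it descends to a
principal ideal of `A`. -/
theorem exists_descent [IsNoetherianRing A] [IsLocalRing A] [IsNoetherianRing B] [IsLocalRing B]
    (φ : A →+* B) [IsLocalHom φ] (hφ : φ.Flat) (s : B) (hs : s ∈ nonZeroDivisors B)
    (u v : A) (hu : u ∈ maximalIdeal A) (hv : v ∈ maximalIdeal A) (huv : RegPair (φ u) (φ v))
    (h : ∀ q : Ideal A, q.IsPrime → q ≠ maximalIdeal A → ∃ t : A, ∀ Q : Ideal B, Q.IsPrime →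
      Q.comap φ ≤ q → (∃ c ∉ Q, c * φ t ∈ Ideal.span {s}) ∧
        (∃ c ∉ Q, c * s ∈ Ideal.span {φ t})) :
    ∃ t : A, Ideal.span {φ t} = Ideal.span {s} := by
  set I : Ideal A := (Ideal.span {s}).comap φ with hIdef
  -- step a
  have hstepa : ∀ q : Ideal A, q.IsPrime → q ≠ maximalIdeal A → ∃ d ∉ q, φ d * s ∈ I.map φ := by
    intro q hq hqm
    obtain ⟨t, ht⟩ := h q hq hqm
    obtain ⟨c₁, hc₁, hc₁'⟩ := exists_notMem_of_forall_prime φ q
      (colonIdeal (Ideal.span {s}) (φ t)) (fun Q hQ hQq hle => by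
        obtain ⟨c, hc, hc'⟩ := (ht Q hQ hQq).1
        exact hc (hle hc'))
    obtain ⟨c₂, hc₂, hc₂'⟩ := exists_notMem_of_forall_prime φ q
      (colonIdeal (Ideal.span {φ t}) s) (fun Q hQ hQq hle => by
        obtain ⟨c, hc, hc'⟩ := (ht Q hQ hQq).2
        exact hc (hle hc'))
    refine ⟨c₁ * c₂, fun hmem => (hq.mem_or_mem hmem).elim hc₁ hc₂, ?_⟩
    have h1 : c₁ * t ∈ I := by
      rw [hIdef, Ideal.mem_comap, map_mul]
      exact hc₁'
    obtain ⟨e, he⟩ := Ideal.mem_span_singleton'.1 (mem_colonIdeal.1 hc₂')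
    have h2 : φ (c₁ * c₂) * s = e * φ (c₁ * t) := by
      rw [map_mul, map_mul]
      linear_combination (- φ c₁) * he
    rw [h2]
    exact Ideal.mul_mem_left _ _ (Ideal.mem_map_of_mem φ h1)
  -- step b
  obtain ⟨n, hn⟩ := exists_pow_le (I := maximalIdeal A)
    (J := (colonIdeal (I.map φ) s).comap φ) (fun q hq hle => by
      by_contra hcon
      obtain ⟨d, hd, hd'⟩ := hstepa q hq (fun e => hcon e.ge)
      exact hd (hle hd'))
  -- step c
  obtain ⟨w, hw, hwreg⟩ := exists_nonassoc I (fun a ha => by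
    rw [hIdef, Ideal.mem_comap]
    apply huv.mem_span hs
    · rw [← map_mul]; exact ha u hu
    · rw [← map_mul]; exact ha v hv)
  -- step d
  have hsI : s ∈ I.map φ := by
    apply mem_map_of_pow_mul_mem φ hφ I w hwreg s n
    rw [← map_pow]
    exact hn (Ideal.pow_mem_pow hw n)
  -- step e
  by_contra hcon
  push Not at hcon
  have h1 : I.map φ ≤ Ideal.span {s} * maximalIdeal B := by
    rw [Ideal.map_le_iff_le_comap]
    intro a ha
    rw [Ideal.mem_comap]
    obtain ⟨c, hc⟩ := Ideal.mem_span_singleton'.1 (show φ a ∈ Ideal.span {s} from ha)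
    rw [← hc, mul_comm c s]
    refine Ideal.mul_mem_mul (Ideal.mem_span_singleton_self s) ?_
    by_contra hcm
    rw [mem_maximalIdeal, mem_nonunits_iff, not_not] at hcm
    apply hcon a
    rw [← hc, mul_comm c s]
    exact Ideal.span_singleton_mul_right_unit hcm s
  have h2 := h1 hsI
  rw [Ideal.mem_span_singleton_mul] at h2
  obtain ⟨z, hz, hz'⟩ := h2
  have h3 : (1 - z) * s = 0 := by linear_combination -hz'
  have h4 : (1 : B) - z = 0 := (mul_right_mem_nonZeroDivisors_eq_zero_iff hs).1 h3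
  have h5 : z = 1 := (sub_eq_zero.1 h4).symm
  rw [h5, mem_maximalIdeal, mem_nonunits_iff] at hz
  exact hz isUnit_one

/-- Membership in a principal ideal generated by a nonzerodivisor can be checked away from the
fibre over a point of depth at least two. -/
theorem mem_span_of_forall_prime [IsNoetherianRing B] [IsLocalRing A]
    (φ : A →+* B) (s : B) (hs : s ∈ nonZeroDivisors B)
    (u v : A) (hu : u ∈ maximalIdeal A) (hv : v ∈ maximalIdeal A) (huv : RegPair (φ u) (φ v))
    (b : B) (h : ∀ Q : Ideal B, Q.IsPrime → Q.comap φ ≠ maximalIdeal A →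
      ∃ c ∉ Q, c * b ∈ Ideal.span {s}) : b ∈ Ideal.span {s} := by
  obtain ⟨n, hn⟩ := exists_pow_le (I := (maximalIdeal A).map φ)
    (J := colonIdeal (Ideal.span {s}) b) (fun Q hQ hle => by
      by_contra hcon
      obtain ⟨c, hc, hc'⟩ := h Q hQ (fun e => hcon (by
        rw [Ideal.map_le_iff_le_comap, e]))
      exact hc (hle hc'))
  exact huv.mem_span_of_pow hs (Ideal.mem_map_of_mem φ hu) (Ideal.mem_map_of_mem φ hv) n
    fun a ha => hn ha

end Flat

end Groth.Agent.Ega4late.H532.Alg
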