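import Groth.Agent.Ega4late.H532.Spread
import Mathlib.AlgebraicGeometry.Morphisms.UniversallyOpen
import Mathlib.RingTheory.Flat.FaithfullyFlat.Algebra

/-!
# Descent of effective Cartier divisors along faithfully flat morphisms

`Gen f 𝓙 y t`: the element `t` of `O_{Y,y}` generates `𝓙` at all points of `X` over generizations of `y`.
`exists_gen_of_depth`: if such nonzerodivisors exist at all proper generizations of a point of depth at least two, then
one exists at the point.
`exists_gen_of_comap`: the case of an effective Cartier divisor on `Spec O_{Y,y}`.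
`exists_descent_iff`: the global statement.
-/

set_option autoImplicit false
universe u

open CategoryTheory CategoryTheory.Limits AlgebraicGeometry TopologicalSpace

namespace Groth.Agent.Ega4late.H532.Descent

open Groth.Agent.Divis.CartierBasic Groth.Agent.Divis.CartierStalk Groth.Agent.CycB.LocQuot
  Groth.Agent.Divis.EffCartier Groth.Agent.Ega4late.H532.Spread Groth.Agent.Divis.StalkAssoc
  IsLocalRing

variable {X Y : Scheme.{u}}

section Alg

variable {A B : Type*} [CommRing A] [CommRing B]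

theorem span_eq_of_map (φ : A →+* B) (hφ : φ.Flat) [IsLocalHom φ] [IsLocalRing A] [IsLocalRing B]
    {a b : A} (h : Ideal.span {φ a} = Ideal.span {φ b}) : Ideal.span {a} = Ideal.span {b} := by
  algebraize [φ]
  have h1 : Module.Flat A B := hφ
  have h2 : IsLocalHom (algebraMap A B) := ‹IsLocalHom φ›
  have : Module.FaithfullyFlat A B := Module.FaithfullyFlat.of_flat_of_isLocalHom
  have h3 : (Ideal.span {a}).map (algebraMap A B) = (Ideal.span {b}).map (algebraMap A B) := by
    rw [Ideal.map_span, Ideal.map_span, Set.image_singleton, Set.image_singleton]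
    exact h
  rw [← Ideal.comap_map_eq_self_of_faithfullyFlat (B := B) (Ideal.span {a}), h3,
    Ideal.comap_map_eq_self_of_faithfullyFlat]

theorem mem_nonZeroDivisors_of_map (φ : A →+* B) (hφ : φ.Flat) [IsLocalHom φ] [IsLocalRing A]
    [IsLocalRing B] {a : A} (h : φ a ∈ nonZeroDivisors B) : a ∈ nonZeroDivisors A := by
  algebraize [φ]
  have h1 : Module.Flat A B := hφ
  have h2 : IsLocalHom (algebraMap A B) := ‹IsLocalHom φ›
  have : Module.FaithfullyFlat A B := Module.FaithfullyFlat.of_flat_of_isLocalHom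
  have hinj : Function.Injective (algebraMap A B) := FaithfulSMul.algebraMap_injective A B
  rw [mem_nonZeroDivisors_iff_right] at h ⊢
  intro x hx
  apply hinj
  rw [map_zero]
  apply h
  change φ x * φ a = 0
  rw [← map_mul, hx, map_zero]

theorem mem_nonZeroDivisors_of_span_eq {a b : A} (h : Ideal.span {a} = Ideal.span {b})
    (ha : a ∈ nonZeroDivisors A) : b ∈ nonZeroDivisors A := by
  have : a ∈ Ideal.span {b} := h ▸ Ideal.mem_span_singleton_self a
  obtain ⟨c, hc⟩ := Ideal.mem_span_singleton'.1 this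
  rw [mem_nonZeroDivisors_iff_right] at ha ⊢
  intro x hx
  exact ha x (by rw [← hc, mul_left_comm, hx, mul_zero])

theorem map_span_congr (φ : A →+* B) {a b : A} (h : Ideal.span {a} = Ideal.span {b}) :
    Ideal.span {φ a} = Ideal.span {φ b} := by
  have := congrArg (Ideal.map φ) h
  rwa [Ideal.map_span, Ideal.map_span, Set.image_singleton, Set.image_singleton] at this

end Alg

variable (f : X ⟶ Y) (𝓙 : X.IdealSheafData)

/-- `t` generates `𝓙` at all points lying over generizations of `y`. -/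
def Gen (y : Y) (t : Y.presheaf.stalk y) : Prop :=
  ∀ (x : X) (h : f x ⤳ y),
    stalkIdeal 𝓙 x = Ideal.span {(f.stalkMap x).hom ((Y.presheaf.stalkSpecializes h).hom t)}

theorem flat_stalkSpecializes {y' y : Y} (h : y' ⤳ y) :
    (Y.presheaf.stalkSpecializes h).hom.Flat := by
  let := (Y.presheaf.stalkSpecializes h).hom.toAlgebra
  have hloc : IsLocalization.AtPrime (Y.presheaf.stalk y') (primeOf h).asIdeal :=
    isLocalization_primeOf h
  exact IsLocalization.flat (Y.presheaf.stalk y') (primeOf h).asIdeal.primeCompl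

theorem stalkIdeal_specializes {x' x : X} (h : x' ⤳ x) {s : X.presheaf.stalk x}
    (hs : stalkIdeal 𝓙 x = Ideal.span {s}) :
    stalkIdeal 𝓙 x' = Ideal.span {(X.presheaf.stalkSpecializes h).hom s} := by
  rw [← stalkIdeal_map_stalkSpecializes 𝓙 h, hs, Ideal.map_span, Set.image_singleton]

theorem specializes_stalkMap {x' x : X} (h : x' ⤳ x) (a : Y.presheaf.stalk (f x)) :
    (X.presheaf.stalkSpecializes h).hom ((f.stalkMap x).hom a) =
      (f.stalkMap x').hom ((Y.presheaf.stalkSpecializes (h.map f.continuous)).hom a) :=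
  (Scheme.Hom.stalkSpecializes_stalkMap_apply f x' x h a).symm

theorem specializes_specializes {y'' y' y : Y} (h' : y'' ⤳ y') (h : y' ⤳ y)
    (a : Y.presheaf.stalk y) :
    (Y.presheaf.stalkSpecializes h').hom ((Y.presheaf.stalkSpecializes h).hom a) =
      (Y.presheaf.stalkSpecializes (h'.trans h)).hom a := by
  have := Y.presheaf.stalkSpecializes_comp h' h
  exact congr($(this).hom a)

theorem specializes_refl_apply (y : Y) (a : Y.presheaf.stalk y) :
    (Y.presheaf.stalkSpecializes (specializes_refl y)).hom a = a := by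
  rw [TopCat.Presheaf.stalkSpecializes_refl]
  rfl

variable {f 𝓙}

theorem Gen.specializes {y' y : Y} (h : y' ⤳ y) {t : Y.presheaf.stalk y} (ht : Gen f 𝓙 y t) :
    Gen f 𝓙 y' ((Y.presheaf.stalkSpecializes h).hom t) := by
  intro x hx
  rw [ht x (hx.trans h), specializes_specializes]

theorem Gen.unique [Flat f] [Surjective f] {y : Y} {t t' : Y.presheaf.stalk y}
    (ht : Gen f 𝓙 y t) (ht' : Gen f 𝓙 y t') : Ideal.span {t} = Ideal.span {t'} := by
  obtain ⟨x, rfl⟩ := f.surjective y
  have h1 := ht x (specializes_refl _)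
  rw [ht' x (specializes_refl _), specializes_refl_apply, specializes_refl_apply] at h1
  exact (span_eq_of_map (f.stalkMap x).hom (Flat.stalkMap f x) h1).symm

theorem ptOf_ne {y : Y} (q : Ideal (Y.presheaf.stalk y)) (hq : q.IsPrime)
    (hqm : q ≠ maximalIdeal (Y.presheaf.stalk y)) : ptOf ⟨q, hq⟩ ≠ y := by
  intro e
  apply hqm
  have h1 : (⟨q, hq⟩ : PrimeSpectrum _) = closedPoint _ := by
    rw [← primeOf_ptOf ⟨q, hq⟩, ← primeOf_refl]
    exact (primeOf_inj _ _).2 e
  exact congrArg PrimeSpectrum.asIdeal h1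

theorem primeOf_map (f : X ⟶ Y) {x' x : X} (h : x' ⤳ x) :
    primeOf (h.map f.continuous) = PrimeSpectrum.comap (f.stalkMap x).hom (primeOf h) := by
  apply PrimeSpectrum.ext
  ext a
  change ¬ IsUnit _ ↔ ¬ IsUnit _
  have h1 := specializes_stalkMap f h a
  rw [h1]
  exact not_congr (isUnit_map_iff (f.stalkMap x').hom _).symm

theorem exists_lift_generator {y' y : Y} (h : y' ⤳ y) (t' : Y.presheaf.stalk y') :
    ∃ t : Y.presheaf.stalk y, Ideal.span {(Y.presheaf.stalkSpecializes h).hom t} =
      Ideal.span {t'} := by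
  let := (Y.presheaf.stalkSpecializes h).hom.toAlgebra
  have hloc : IsLocalization.AtPrime (Y.presheaf.stalk y') (primeOf h).asIdeal :=
    isLocalization_primeOf h
  obtain ⟨⟨r, s⟩, hrs⟩ := IsLocalization.surj (primeOf h).asIdeal.primeCompl t'
  have hsu : IsUnit (algebraMap (Y.presheaf.stalk y) (Y.presheaf.stalk y') s) :=
    IsLocalization.map_units _ s
  refine ⟨r, ?_⟩
  change Ideal.span {algebraMap (Y.presheaf.stalk y) (Y.presheaf.stalk y') r} = _
  simp only at hrs
  rw [← hrs]
  exact Ideal.span_singleton_mul_right_unit hsu t'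

/-- Extension over a point of depth at least two. -/
theorem exists_gen_of_depth [IsLocallyNoetherian X] [IsLocallyNoetherian Y] [Flat f] [Surjective f]
    (hJ : ∀ x, ∃ g ∈ nonZeroDivisors (X.presheaf.stalk x), stalkIdeal 𝓙 x = Ideal.span {g})
    (y : Y) (hd : ¬ LocCoh.depth (Y.presheaf.stalk y) (Y.presheaf.stalk y) ≤ 1)
    (ih : ∀ y', y' ⤳ y → y' ≠ y →
      ∃ t ∈ nonZeroDivisors (Y.presheaf.stalk y'), Gen f 𝓙 y' t) :
    ∃ t ∈ nonZeroDivisors (Y.presheaf.stalk y), Gen f 𝓙 y t := by
  obtain ⟨x₀, rfl⟩ := f.surjective y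
  have hφ : (f.stalkMap x₀).hom.Flat := Flat.stalkMap f x₀
  obtain ⟨s, hs, hJs⟩ := hJ x₀
  obtain ⟨u, hu, v, hv, huv⟩ := Alg.exists_isWeaklyRegular_pair hd
  obtain ⟨t, ht⟩ := Alg.exists_descent (f.stalkMap x₀).hom hφ s hs u v hu hv
    (Alg.regPair_map _ hφ huv) (by
      intro q hq hqm
      have hy' := ptOf_specializes (⟨q, hq⟩ : PrimeSpectrum (Y.presheaf.stalk (f x₀)))
      obtain ⟨t', -, hP⟩ := ih _ hy' (ptOf_ne q hq hqm)
      obtain ⟨t'', ht''⟩ := exists_lift_generator hy' t'
      refine ⟨t'', fun Q hQ hQq => ?_⟩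
      have hx' := ptOf_specializes (⟨Q, hQ⟩ : PrimeSpectrum (X.presheaf.stalk x₀))
      have hQe : (primeOf hx').asIdeal = Q := by rw [primeOf_ptOf]
      have hfx' : f (ptOf (⟨Q, hQ⟩ : PrimeSpectrum (X.presheaf.stalk x₀))) ⤳
          ptOf (⟨q, hq⟩ : PrimeSpectrum (Y.presheaf.stalk (f x₀))) := by
        have e1 : primeOf hx' = ⟨Q, hQ⟩ := primeOf_ptOf _
        have e2 : primeOf hy' = ⟨q, hq⟩ := primeOf_ptOf _
        rw [← primeOf_le_iff (hx'.map f.continuous) hy', primeOf_map f hx', e1, e2]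
        exact hQq
      have h1 := hP _ hfx'
      rw [stalkIdeal_specializes 𝓙 hx' hJs] at h1
      have h2 : Ideal.span {(X.presheaf.stalkSpecializes hx').hom ((f.stalkMap x₀).hom t'')} =
          Ideal.span {(X.presheaf.stalkSpecializes hx').hom s} := by
        rw [h1, specializes_stalkMap, ← specializes_specializes hfx' hy']
        exact map_span_congr _ (map_span_congr _ ht'')
      constructor
      · obtain ⟨c, hc, hc'⟩ := exists_mul_mem_of_mem hx' ((f.stalkMap x₀).hom t'') s
          (by rw [← h2]; exact Ideal.mem_span_singleton_self _)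
        exact ⟨c, hQe ▸ hc, hc'⟩
      · obtain ⟨c, hc, hc'⟩ := exists_mul_mem_of_mem hx' s ((f.stalkMap x₀).hom t'')
          (by rw [h2]; exact Ideal.mem_span_singleton_self _)
        exact ⟨c, hQe ▸ hc, hc'⟩)
  have htn : t ∈ nonZeroDivisors (Y.presheaf.stalk (f x₀)) :=
    mem_nonZeroDivisors_of_map (f.stalkMap x₀).hom hφ (mem_nonZeroDivisors_of_span_eq ht.symm hs)
  -- points over proper generizations
  have case1 : ∀ (x : X) (h : f x ⤳ f x₀), f x ≠ f x₀ →
      stalkIdeal 𝓙 x =
        Ideal.span {(f.stalkMap x).hom ((Y.presheaf.stalkSpecializes h).hom t)} := by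
    intro x h hne
    obtain ⟨t', -, hP⟩ := ih _ h hne
    obtain ⟨x₁, hx₁, hfx₁⟩ := Flat.generalizingMap f h
    have hs₁ : f x₁ ⤳ f x := specializes_of_eq hfx₁
    have hs₂ : f x ⤳ f x₁ := specializes_of_eq hfx₁.symm
    have e1 := hP x₁ hs₁
    rw [stalkIdeal_specializes 𝓙 hx₁ hJs] at e1
    have e2 := map_span_congr (X.presheaf.stalkSpecializes hx₁).hom ht
    rw [e1, specializes_stalkMap] at e2
    have e3 := span_eq_of_map (f.stalkMap x₁).hom (Flat.stalkMap f x₁) e2
    have e4 := map_span_congr (Y.presheaf.stalkSpecializes hs₂).hom e3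
    rw [specializes_specializes, specializes_specializes] at e4
    have e5 := map_span_congr (f.stalkMap x).hom e4
    rw [e5]
    exact hP x (hs₂.trans hs₁)
  refine ⟨t, htn, fun x h => ?_⟩
  by_cases hne : f x = f x₀
  · obtain ⟨s', hs', hJs'⟩ := hJ x
    let ψ : Y.presheaf.stalk (f x₀) →+* X.presheaf.stalk x :=
      (f.stalkMap x).hom.comp (Y.presheaf.stalkSpecializes h).hom
    have hψ : ψ.Flat := (flat_stalkSpecializes h).comp (Flat.stalkMap f x)
    have hψt : ψ t ∈ nonZeroDivisors (X.presheaf.stalk x) :=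
      map_mem_nonZeroDivisors_of_flat ψ hψ htn
    have key : ∀ Q : Ideal (X.presheaf.stalk x), Q.IsPrime →
        Q.comap ψ ≠ maximalIdeal (Y.presheaf.stalk (f x₀)) →
        (∃ c ∉ Q, c * s' ∈ Ideal.span {ψ t}) ∧ (∃ c ∉ Q, c * ψ t ∈ Ideal.span {s'}) := by
      intro Q hQ hQm
      have hx' := ptOf_specializes (⟨Q, hQ⟩ : PrimeSpectrum (X.presheaf.stalk x))
      have hQe : (primeOf hx').asIdeal = Q := by rw [primeOf_ptOf]
      have hfx' := (hx'.map f.continuous).trans h
      have hne' : f (ptOf (⟨Q, hQ⟩ : PrimeSpectrum (X.presheaf.stalk x))) ≠ f x₀ := by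
        intro e
        apply hQm
        have h1 : primeOf hfx' = primeOf (specializes_refl (f x₀)) := (primeOf_inj _ _).2 e
        rw [primeOf_refl] at h1
        have h2 : (primeOf hfx').asIdeal = Q.comap ψ := by
          have h3 := congrArg PrimeSpectrum.asIdeal (primeOf_map f hx')
          ext a
          have h4 : a ∈ (primeOf hfx').asIdeal ↔
              (Y.presheaf.stalkSpecializes h).hom a ∈
                (primeOf (hx'.map f.continuous)).asIdeal := by
            change ¬ IsUnit _ ↔ ¬ IsUnit _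
            rw [specializes_specializes]
          rw [h4, h3, primeOf_ptOf]
          rfl
        rw [← h2, h1]
        rfl
      have h1 := case1 _ hfx' hne'
      rw [stalkIdeal_specializes 𝓙 hx' hJs'] at h1
      have h2 : Ideal.span {(X.presheaf.stalkSpecializes hx').hom s'} =
          Ideal.span {(X.presheaf.stalkSpecializes hx').hom (ψ t)} := by
        rw [h1]
        change _ = Ideal.span {(X.presheaf.stalkSpecializes hx').hom ((f.stalkMap x).hom
          ((Y.presheaf.stalkSpecializes h).hom t))}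
        rw [specializes_stalkMap, specializes_specializes]
      constructor
      · obtain ⟨c, hc, hc'⟩ := exists_mul_mem_of_mem hx' s' (ψ t)
          (by rw [← h2]; exact Ideal.mem_span_singleton_self _)
        exact ⟨c, hQe ▸ hc, hc'⟩
      · obtain ⟨c, hc, hc'⟩ := exists_mul_mem_of_mem hx' (ψ t) s'
          (by rw [h2]; exact Ideal.mem_span_singleton_self _)
        exact ⟨c, hQe ▸ hc, hc'⟩
    rw [hJs']
    have hpair := Alg.regPair_map ψ hψ huv
    apply le_antisymm
    · rw [Ideal.span_singleton_le_iff_mem]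
      exact Alg.mem_span_of_forall_prime ψ (ψ t) hψt u v hu hv hpair s'
        (fun Q hQ hQm => (key Q hQ hQm).1)
    · rw [Ideal.span_singleton_le_iff_mem]
      exact Alg.mem_span_of_forall_prime ψ s' hs' u v hu hv hpair (ψ t)
        (fun Q hQ hQm => (key Q hQ hQm).2)
  · exact case1 x h hne

/-- The ideal on `Spec O_{X,x}` obtained by pulling back an ideal sheaf is the stalk ideal. -/
theorem ideal_comap_fromSpecStalk (𝓙 : X.IdealSheafData) (x : X) :
    (𝓙.comap (X.fromSpecStalk x)).ideal ⟨⊤, isAffineOpen_top _⟩ =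
      (stalkIdeal 𝓙 x).map (Scheme.ΓSpecIso (X.presheaf.stalk x)).inv.hom := by
  obtain ⟨U, hxU⟩ := exists_affine x
  have e : (⊤ : (Spec (X.presheaf.stalk x)).Opens) ≤ X.fromSpecStalk x ⁻¹ᵁ U.1 := by
    intro z _
    have hz : X.fromSpecStalk x z ⤳ x := fromSpecStalk_specializes z
    exact hz.mem_open U.1.isOpen hxU
  rw [Groth.Agent.Divis.IdealComap.ideal_comap 𝓙 (X.fromSpecStalk x) U ⟨⊤, isAffineOpen_top _⟩ e,
    stalkIdeal_eq 𝓙 U hxU, Ideal.map_map, ← CommRingCat.hom_comp]
  congr 2
  rw [Scheme.Hom.appLE, Scheme.fromSpecStalk_app hxU, Category.assoc, Category.assoc]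
  rw [← Functor.map_comp]
  have : (homOfLE (le_top (a := X.fromSpecStalk x ⁻¹ᵁ U.1))).op ≫ (homOfLE e).op =
      𝟙 (Opposite.op (⊤ : (Spec (X.presheaf.stalk x)).Opens)) := rfl
  rw [this, CategoryTheory.Functor.map_id, Category.comp_id]

/-- An effective Cartier divisor on `Spec O_{Y,y}` pulling back to the localization of `𝓙` gives a
generator of `𝓙` over all generizations of `y`. -/
theorem exists_gen_of_comap (y : Y) (𝓘₁ : (Spec (Y.presheaf.stalk y)).IdealSheafData)
    (h₁ : BlowUp.IsEffCartierIdeal 𝓘₁)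
    (h : 𝓘₁.comap (pullback.snd f (Y.fromSpecStalk y)) =
      𝓙.comap (pullback.fst f (Y.fromSpecStalk y))) :
    ∃ t ∈ nonZeroDivisors (Y.presheaf.stalk y), Gen f 𝓙 y t := by
  obtain ⟨U, hU, b, hb, hbU⟩ := h₁ (closedPoint (Y.presheaf.stalk y))
  have hUtop : U = ⟨⊤, isAffineOpen_top _⟩ := by
    apply Subtype.ext
    change U.1 = ⊤
    rw [eq_top_iff]
    intro z _
    exact (specializes_closedPoint z).mem_open U.1.isOpen hU
  subst hUtop
  let e := Scheme.ΓSpecIso (Y.presheaf.stalk y)
  refine ⟨e.hom.hom b, ?_, ?_⟩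
  · exact map_mem_nonZeroDivisors_of_flat _ (RingHom.Flat.of_bijective
      (ConcreteCategory.bijective_of_isIso e.hom)) hb
  · intro x hx
    let g : Spec (X.presheaf.stalk x) ⟶ Spec (Y.presheaf.stalk y) :=
      Spec.map (Y.presheaf.stalkSpecializes hx ≫ f.stalkMap x)
    have hg : X.fromSpecStalk x ≫ f = g ≫ Y.fromSpecStalk y := by
      rw [← Scheme.SpecMap_stalkMap_fromSpecStalk]
      simp only [g, Spec.map_comp, Category.assoc]
      rw [Scheme.SpecMap_stalkSpecializes_fromSpecStalk]
    have h2 : 𝓘₁.comap g = 𝓙.comap (X.fromSpecStalk x) := by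
      rw [← pullback.lift_snd _ _ hg, Scheme.IdealSheafData.comap_comp, h,
        ← Scheme.IdealSheafData.comap_comp, pullback.lift_fst]
    have h3 := congrArg (fun I => Scheme.IdealSheafData.ideal I ⟨⊤, isAffineOpen_top _⟩) h2
    simp only at h3
    rw [ideal_comap_fromSpecStalk, Groth.Agent.Divis.IdealComap.ideal_comap 𝓘₁ g
      ⟨⊤, isAffineOpen_top _⟩ ⟨⊤, isAffineOpen_top _⟩ le_top, hbU, Ideal.map_span,
      Set.image_singleton] at h3
    have h4 := congrArg (Ideal.map (Scheme.ΓSpecIso (X.presheaf.stalk x)).hom.hom) h3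
    rw [Ideal.map_map, ← CommRingCat.hom_comp, Iso.inv_hom_id, Ideal.map_span,
      Set.image_singleton] at h4
    have h5 : (stalkIdeal 𝓙 x).map (CommRingCat.Hom.hom (𝟙 (X.presheaf.stalk x))) =
        stalkIdeal 𝓙 x := Ideal.map_id _
    rw [h5] at h4
    rw [← h4]
    have h6 : (g.appLE ⊤ ⊤ le_top) ≫ (Scheme.ΓSpecIso (X.presheaf.stalk x)).hom =
        e.hom ≫ Y.presheaf.stalkSpecializes hx ≫ f.stalkMap x := by
      rw [← Scheme.ΓSpecIso_naturality, Scheme.Hom.appTop, Scheme.Hom.app_eq_appLE]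
      rfl
    exact congrArg (fun z => Ideal.span {z}) congr($(h6).hom b)

theorem flat_fromSpecStalk (s : Y) : Flat (Y.fromSpecStalk s) := by
  obtain ⟨_, ⟨U, hU, rfl⟩, hxU, -⟩ :=
    Y.isBasis_affineOpens.exists_subset_of_mem_open (Set.mem_univ s) isOpen_univ
  have h1 : Flat (Spec.map (Y.presheaf.germ U s hxU)) := by
    rw [Flat.SpecMap_iff]
    let _ : Algebra Γ(Y, U) (Y.presheaf.stalk s) := (Y.presheaf.germ U s hxU).hom.toAlgebra
    have := hU.isLocalization_stalk ⟨s, hxU⟩
    exact IsLocalization.flat (Y.presheaf.stalk s) (hU.primeIdealOf ⟨s, hxU⟩).asIdeal.primeCompl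
  rw [← hU.fromSpecStalk_eq_fromSpecStalk hxU]
  have : IsOpenImmersion (IsAffineOpen.fromSpec hU) := IsAffineOpen.isOpenImmersion_fromSpec hU
  have h2 : Flat (IsAffineOpen.fromSpec hU) := inferInstance
  exact MorphismProperty.comp_mem @Flat _ _ h1 h2

/-- If `𝓙` is locally generated by elements coming from the local rings of `Y`, then it descends. -/
theorem exists_descent_of_gen [IsLocallyNoetherian Y] [Flat f] [Surjective f]
    (hf : QuasiCompact f ∨ IsOpenMap f)
    (H : ∀ y : Y, ∃ t ∈ nonZeroDivisors (Y.presheaf.stalk y), Gen f 𝓙 y t) :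
    ∃ 𝓘 : Y.IdealSheafData, BlowUp.IsEffCartierIdeal 𝓘 ∧ 𝓘.comap f = 𝓙 := by
  choose t ht hG using H
  have hunit : ∀ x : X, IsUnit (t (f x)) ↔ stalkIdeal 𝓙 x = ⊤ := by
    intro x
    rw [hG (f x) x (specializes_refl _), specializes_refl_apply, Ideal.span_singleton_eq_top]
    exact (isUnit_map_iff (f.stalkMap x).hom _).symm
  have hpre : f ⁻¹' {y : Y | ¬ IsUnit (t y)} = (𝓙.support : Set X) := by
    ext x
    rw [Set.mem_preimage, SetLike.mem_coe, mem_support_iff_stalkIdeal_ne_top]
    exact not_congr (hunit x)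
  have hquot : Topology.IsQuotientMap f := by
    rcases hf with hf | hf
    · exact Flat.isQuotientMap_of_surjective f
    · exact hf.isQuotientMap f.continuous f.surjective
  have hZ : IsClosed {y : Y | ¬ IsUnit (t y)} := by
    rw [← hquot.isClosed_preimage, hpre]
    exact 𝓙.support.isClosed
  obtain ⟨𝓘, h𝓘, hst⟩ := exists_effCartier t ht (fun {y' y} h =>
    ((hG y).specializes h).unique (hG y')) hZ
  refine ⟨𝓘, h𝓘, ext_stalkIdeal fun x => ?_⟩
  rw [stalkIdeal_comap, hst, Ideal.map_span, Set.image_singleton,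
    hG (f x) x (specializes_refl _), specializes_refl_apply]

/-- **Descent of effective Cartier divisors**: it suffices to have generators at the points of
depth at most one. -/
theorem exists_descent_of_depth [IsLocallyNoetherian X] [IsLocallyNoetherian Y] [Flat f]
    [Surjective f] (hf : QuasiCompact f ∨ IsOpenMap f) (hJ : BlowUp.IsEffCartierIdeal 𝓙)
    (H : ∀ y : Y, LocCoh.depth (Y.presheaf.stalk y) (Y.presheaf.stalk y) ≤ 1 →
      ∃ t ∈ nonZeroDivisors (Y.presheaf.stalk y), Gen f 𝓙 y t) :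
    ∃ 𝓘 : Y.IdealSheafData, BlowUp.IsEffCartierIdeal 𝓘 ∧ 𝓘.comap f = 𝓙 := by
  apply exists_descent_of_gen hf
  intro y
  refine (wf_gen (Y := Y)).induction
    (C := fun y => ∃ t ∈ nonZeroDivisors (Y.presheaf.stalk y), Gen f 𝓙 y t) y ?_
  intro y ih
  by_cases hd : LocCoh.depth (Y.presheaf.stalk y) (Y.presheaf.stalk y) ≤ 1
  · exact H y hd
  · exact exists_gen_of_depth (exists_stalkIdeal_eq_span hJ) y hd
      (fun y' h hne => ih y' ⟨h, hne⟩)

/-- Inverse images of effective Cartier divisors, localized at a point. -/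
theorem exists_comap_of_comap [Flat f] {𝓘 : Y.IdealSheafData} (h𝓘 : BlowUp.IsEffCartierIdeal 𝓘)
    (h : 𝓘.comap f = 𝓙) (y : Y) :
    ∃ 𝓘₁ : (Spec (Y.presheaf.stalk y)).IdealSheafData, BlowUp.IsEffCartierIdeal 𝓘₁ ∧
      𝓘₁.comap (pullback.snd f (Y.fromSpecStalk y)) =
        𝓙.comap (pullback.fst f (Y.fromSpecStalk y)) := by
  have : Flat (Y.fromSpecStalk y) := flat_fromSpecStalk y
  refine ⟨𝓘.comap (Y.fromSpecStalk y), isEff_comap_flat h𝓘 _, ?_⟩
  rw [← h, ← Scheme.IdealSheafData.comap_comp, ← Scheme.IdealSheafData.comap_comp,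
    pullback.condition]

end Groth.Agent.Ega4late.H532.Descent
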