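import Groth.Agent.Divis.CartierStalk
import Groth.Agent.Divis.StalkAssoc
import Groth.Agent.Divis.EffCartier
import Groth.Agent.Picfga.IdealGlue
import Groth.Agent.Ega4late.H532.Alg

/-!
# Gluing ideal sheaves from their stalks
-/

set_option autoImplicit false
universe u

open CategoryTheory CategoryTheory.Limits AlgebraicGeometry TopologicalSpace

namespace Groth.Agent.Ega4late.H532.GlueStalk

open Groth.Agent.Divis.CartierBasic Groth.Agent.Divis.CartierStalk Groth.Agent.CycB.LocQuot

variable {X Y : Scheme.{u}}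

theorem stalkIdeal_ofIdealTop (I : Ideal Γ(X, ⊤)) (x : X) :
    stalkIdeal (Scheme.IdealSheafData.ofIdealTop I) x =
      I.map (X.presheaf.germ ⊤ x trivial).hom := by
  obtain ⟨U, hx⟩ := exists_affine x
  rw [stalkIdeal_eq _ U hx, Scheme.IdealSheafData.ofIdealTop_ideal, Ideal.map_map,
    ← CommRingCat.hom_comp]
  congr 2
  exact X.presheaf.germ_res (homOfLE le_top) x hx

/-- Ideal sheaves can be glued from their stalks: a family of ideals `K y ⊆ O_{Y,y}` which is
locally generated by an ideal of sections is the family of stalks of an ideal sheaf. -/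
theorem exists_idealSheaf_of_local (K : ∀ y : Y, Ideal (Y.presheaf.stalk y))
    (h : ∀ y : Y, ∃ (V : Y.Opens) (_ : y ∈ V) (J : Ideal Γ(Y, V)), ∀ y' (h' : y' ∈ V),
      K y' = J.map (Y.presheaf.germ V y' h').hom) :
    ∃ 𝓘 : Y.IdealSheafData, ∀ y, stalkIdeal 𝓘 y = K y := by
  choose V hV J hJ using h
  let I : ∀ y : Y, (V y).toScheme.IdealSheafData := fun y =>
    Scheme.IdealSheafData.ofIdealTop ((J y).map ((V y).ι.appLE (V y) ⊤ (V y).ι_preimage_self.ge).hom)
  have hI : ∀ (y : Y) (z : (V y).toScheme),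
      stalkIdeal (I y) z = (K ((V y).ι z)).map ((V y).ι.stalkMap z).hom := by
    intro y z
    have hz : (V y).ι z ∈ V y := z.2
    rw [stalkIdeal_ofIdealTop, hJ y ((V y).ι z) hz, Ideal.map_map, Ideal.map_map,
      ← CommRingCat.hom_comp, ← CommRingCat.hom_comp]
    congr 2
    rw [Scheme.Hom.germ_stalkMap, Scheme.Hom.appLE, Category.assoc]
    congr 1
    exact (V y).toScheme.presheaf.germ_res (homOfLE (V y).ι_preimage_self.ge) z trivial
  have hcomp : ∀ {T : Scheme.{u}} (y : Y) (g : T ⟶ (V y).toScheme) (z : T),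
      stalkIdeal ((I y).comap g) z = (K ((g ≫ (V y).ι) z)).map ((g ≫ (V y).ι).stalkMap z).hom := by
    intro T y g z
    rw [stalkIdeal_comap, hI, Ideal.map_map, ← CommRingCat.hom_comp]
    congr 2
    exact (Scheme.Hom.stalkMap_comp g (V y).ι z).symm
  obtain ⟨𝓘, h𝓘, -⟩ := Groth.Agent.Picfga.IdealGlue.exists_unique_glue_family (Y := Y) (ι := Y)
    (fun y => (V y).toScheme) (fun y => (V y).ι) (fun y => ⟨y, ⟨y, hV y⟩, rfl⟩) I (by
      intro i j
      apply ext_stalkIdeal
      intro z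
      rw [hcomp, hcomp]
      have := pullback.condition (f := (V i).ι) (g := (V j).ι)
      rw [this])
  refine ⟨𝓘, fun y => ?_⟩
  obtain ⟨z, hz⟩ : ∃ z : (V y).toScheme, (V y).ι z = y := ⟨⟨y, hV y⟩, rfl⟩
  have h1 := stalkIdeal_comap 𝓘 (V y).ι z
  rw [h𝓘 y, hI] at h1
  have h2 : Function.Injective (Ideal.map ((V y).ι.stalkMap z).hom) :=
    Groth.Agent.Divis.IdealComap.map_injective_of_isIso _
  rw [← hz]
  exact (h2 h1).symm

end Groth.Agent.Ega4late.H532.GlueStalk
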