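import Groth.Agent.Divis.MapOpen
import Groth.Agent.Divis.StalkPrime
import Groth.Agent.Ega4late.H532.GlueStalk
import Mathlib.RingTheory.Ideal.AssociatedPrime.Finiteness
import Mathlib.RingTheory.Ideal.KrullsHeightTheorem

/-!
# Effective Cartier divisors from their stalks

`exists_effCartier`: on a locally Noetherian scheme `Y` let `t y ∈ O_{Y,y}` be nonzerodivisors, such that the ideals
`(t y)` are compatible with generization and such that `{y | t y is not a unit}` is closed. Then there is an effective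
Cartier ideal sheaf with stalks `(t y)`.
-/

set_option autoImplicit false
universe u

open CategoryTheory CategoryTheory.Limits AlgebraicGeometry TopologicalSpace

namespace Groth.Agent.Ega4late.H532.Spread

open Groth.Agent.Divis.CartierBasic Groth.Agent.Divis.CartierStalk Groth.Agent.CycB.LocQuot
  Groth.Agent.Divis.EffCartier Groth.Agent.Divis.MapOpen IsLocalRing

variable {X Y : Scheme.{u}}

/-- A nonzerodivisor of a stalk is, up to a unit, the germ of a nonzerodivisor section. -/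
theorem exists_nzd_section [IsLocallyNoetherian Y] (y : Y) (g : Y.presheaf.stalk y)
    (hg : g ∈ nonZeroDivisors (Y.presheaf.stalk y)) :
    ∃ (U : Y.affineOpens) (hy : y ∈ U.1) (f : Γ(Y, U.1)), f ∈ nonZeroDivisors Γ(Y, U.1) ∧
      Ideal.span {Y.presheaf.germ U.1 y hy f} = Ideal.span {g} := by
  obtain ⟨U, hyU⟩ := exists_affine y
  have : IsNoetherianRing Γ(Y, U.1) := IsLocallyNoetherian.component_noetherian U
  let := Y.presheaf.algebra_section_stalk (⟨y, hyU⟩ : U.1)
  have hloc : IsLocalization.AtPrime (Y.presheaf.stalk y) (U.2.primeIdealOf ⟨y, hyU⟩).asIdeal :=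
    U.2.isLocalization_stalk ⟨y, hyU⟩
  obtain ⟨⟨r, s⟩, hrs⟩ := IsLocalization.surj (U.2.primeIdealOf ⟨y, hyU⟩).asIdeal.primeCompl g
  have hsu : IsUnit (algebraMap Γ(Y, U.1) (Y.presheaf.stalk y) s) := IsLocalization.map_units _ s
  have h' : (Ideal.span {r}).map (algebraMap Γ(Y, U.1) (Y.presheaf.stalk y)) = Ideal.span {g} := by
    rw [Ideal.map_span, Set.image_singleton]
    simp only at hrs
    rw [← hrs]
    exact Ideal.span_singleton_mul_right_unit hsu g
  obtain ⟨t, ht, f, hf, h1, h2⟩ := Groth.Agent.Divis.CartierAlg.exists_generator_nzd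
    (U.2.primeIdealOf ⟨y, hyU⟩).asIdeal (Ideal.span {r}) (Y.presheaf.stalk y) g hg h'
  have : IsLocalization.Away t Γ(Y, Y.basicOpen t) := U.2.isLocalization_basicOpen t
  obtain ⟨h3, h4⟩ := Groth.Agent.Divis.CartierAlg.away_generator (Ideal.span {r}) t f hf h1 h2
    Γ(Y, Y.basicOpen t)
  have hmem : y ∈ (Y.affineBasicOpen t).1 := by
    rw [Scheme.affineBasicOpen_coe, Scheme.mem_basicOpen _ _ _ hyU]
    exact IsLocalization.map_units (Y.presheaf.stalk y)
      (⟨t, ht⟩ : (U.2.primeIdealOf ⟨y, hyU⟩).asIdeal.primeCompl)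
  refine ⟨Y.affineBasicOpen t, hmem, algebraMap Γ(Y, U.1) Γ(Y, Y.basicOpen t) f, h3, ?_⟩
  have hmem' : y ∈ Y.basicOpen t := hmem
  have h4' : (Ideal.span {r}).map (Y.presheaf.map (homOfLE (Y.basicOpen_le t)).op).hom =
    Ideal.span {(Y.presheaf.map (homOfLE (Y.basicOpen_le t)).op).hom f} := h4
  have h5 : (Ideal.span {(Y.presheaf.map (homOfLE (Y.basicOpen_le t)).op).hom f}).map
      (Y.presheaf.germ (Y.basicOpen t) y hmem').hom = Ideal.span {g} := by
    rw [← h4', Ideal.map_map, ← h', ← CommRingCat.hom_comp]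
    congr 1
    have := Y.presheaf.germ_res (homOfLE (Y.basicOpen_le t)) y hmem'
    exact congrArg CommRingCat.Hom.hom this
  rw [Ideal.map_span, Set.image_singleton] at h5
  exact h5

/-- Algebra: a socle element of `R_q / a` makes `q` an associated prime of `R / a`. -/
theorem exists_colon {R : Type*} [CommRing R] [IsNoetherianRing R] (q : Ideal R) [q.IsPrime]
    (S : Type*) [CommRing S] [Algebra R S] [IsLocalization.AtPrime S q] [IsLocalRing S] (a : R)
    (c : S) (hc : c ∉ Ideal.span {algebraMap R S a})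
    (h : ∀ r ∈ maximalIdeal S, r * c ∈ Ideal.span {algebraMap R S a}) :
    ∃ b : R, ∀ r, r ∈ q ↔ r * b ∈ Ideal.span {a} := by
  obtain ⟨⟨b₀, s₀⟩, hb₀⟩ := IsLocalization.surj q.primeCompl c
  simp only at hb₀
  have hsu : IsUnit (algebraMap R S s₀) := IsLocalization.map_units _ s₀
  have hmap : Ideal.span {algebraMap R S a} = (Ideal.span {a}).map (algebraMap R S) := by
    rw [Ideal.map_span, Set.image_singleton]
  have h1 : algebraMap R S b₀ ∉ Ideal.span {algebraMap R S a} := by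
    rw [← hb₀, Ideal.mul_unit_mem_iff_mem _ hsu]
    exact hc
  have h2 : ∀ r ∈ q, ∃ u, u ∉ q ∧ u * (r * b₀) ∈ Ideal.span {a} := by
    intro r hr
    have h3 : algebraMap R S (r * b₀) ∈ (Ideal.span {a}).map (algebraMap R S) := by
      rw [map_mul, ← hb₀, ← hmap, ← mul_assoc, Ideal.mul_unit_mem_iff_mem _ hsu]
      exact h _ ((IsLocalization.AtPrime.to_map_mem_maximal_iff S q r).2 hr)
    rw [IsLocalization.algebraMap_mem_map_algebraMap_iff q.primeCompl] at h3
    obtain ⟨u, hu, h4⟩ := h3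
    exact ⟨u, hu, h4⟩
  obtain ⟨u, hu, hu'⟩ := exists_uniform q (Ideal.span {a}) (q * Ideal.span {b₀})
    (IsNoetherian.noetherian _) (fun π hπ => by
      obtain ⟨r, hr, rfl⟩ := Ideal.mem_mul_span_singleton.1 hπ
      exact h2 r hr)
  refine ⟨u * b₀, fun r => ⟨fun hr => ?_, fun hr => ?_⟩⟩
  · rw [mul_left_comm]
    exact hu' _ (Ideal.mul_mem_mul hr (Ideal.mem_span_singleton_self b₀))
  · by_contra hrq
    apply h1
    have h5 := Ideal.mem_map_of_mem (algebraMap R S) hr
    rw [← hmap, ← mul_assoc, map_mul] at h5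
    have h6 : IsUnit (algebraMap R S (r * u)) := IsLocalization.map_units S
      (⟨r * u, fun hm => (Ideal.IsPrime.mem_or_mem ‹_› hm).elim hrq hu⟩ : q.primeCompl)
    rwa [Ideal.unit_mul_mem_iff_mem _ h6] at h5

/-- The points of an affine open `V` whose maximal ideal is associated to `O/a` are finite in
number. -/
theorem finite_socle [IsLocallyNoetherian Y] {V : Y.Opens} (hV : IsAffineOpen V) (a : Γ(Y, V)) :
    {η : Y | ∃ h : η ∈ V, ∃ c ∉ Ideal.span {Y.presheaf.germ V η h a},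
      ∀ r ∈ maximalIdeal (Y.presheaf.stalk η),
        r * c ∈ Ideal.span {Y.presheaf.germ V η h a}}.Finite := by
  have hN : IsNoetherianRing Γ(Y, V) := IsLocallyNoetherian.component_noetherian ⟨V, hV⟩
  have hfin : ({q : PrimeSpectrum Γ(Y, V) |
      q.asIdeal ∈ associatedPrimes Γ(Y, V) (Γ(Y, V) ⧸ Ideal.span {a})}).Finite :=
    (associatedPrimes.finite Γ(Y, V) (Γ(Y, V) ⧸ Ideal.span {a})).preimage
      (fun p _ q _ h => PrimeSpectrum.ext h)
  refine (hfin.image (fun q => hV.fromSpec q)).subset ?_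
  rintro η ⟨h, c, hc, hc'⟩
  refine ⟨hV.primeIdealOf ⟨η, h⟩, ?_, hV.fromSpec_primeIdealOf ⟨η, h⟩⟩
  let := Y.presheaf.algebra_section_stalk (⟨η, h⟩ : V)
  have hloc : IsLocalization.AtPrime (Y.presheaf.stalk η) (hV.primeIdealOf ⟨η, h⟩).asIdeal :=
    hV.isLocalization_stalk ⟨η, h⟩
  obtain ⟨b, hb⟩ := exists_colon (hV.primeIdealOf ⟨η, h⟩).asIdeal (Y.presheaf.stalk η) a c hc hc'
  change (hV.primeIdealOf ⟨η, h⟩).asIdeal ∈ associatedPrimes Γ(Y, V) (Γ(Y, V) ⧸ Ideal.span {a})
  rw [AssociatedPrimes.mem_iff, isAssociatedPrime_iff]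
  refine ⟨inferInstance, Ideal.Quotient.mk _ b, ?_⟩
  ext r
  rw [hb, Submodule.mem_colon_singleton, Submodule.mem_bot, ← Ideal.Quotient.eq_zero_iff_mem]
  exact Iff.rfl

/-- The maximal points of a closed set in an affine open of a locally Noetherian scheme are finite
in number. -/
theorem finite_maximal [IsLocallyNoetherian Y] {V : Y.Opens} (hV : IsAffineOpen V) (Z : Set Y)
    (hZ : IsClosed Z) :
    {η : Y | η ∈ V ∧ η ∈ Z ∧ ∀ η', η' ⤳ η → η' ∈ Z → η' = η}.Finite := by
  have hN : IsNoetherianRing Γ(Y, V) := IsLocallyNoetherian.component_noetherian ⟨V, hV⟩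
  have hcl : IsClosed (hV.fromSpec ⁻¹' Z) := hZ.preimage hV.fromSpec.continuous
  obtain ⟨I, hI⟩ := (PrimeSpectrum.isClosed_iff_zeroLocus_ideal _).1 hcl
  have hfin : ({q : PrimeSpectrum Γ(Y, V) | q.asIdeal ∈ I.minimalPrimes}).Finite :=
    (Ideal.finite_minimalPrimes_of_isNoetherianRing _ I).preimage
      (fun p _ q _ h => PrimeSpectrum.ext h)
  refine (hfin.image (fun q => hV.fromSpec q)).subset ?_
  rintro η ⟨hη, hηZ, hmax⟩
  have hη' := hV.fromSpec_primeIdealOf ⟨η, hη⟩
  simp only at hη'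
  refine ⟨hV.primeIdealOf ⟨η, hη⟩, ?_, hη'⟩
  have h1 : hV.primeIdealOf ⟨η, hη⟩ ∈ PrimeSpectrum.zeroLocus (I : Set Γ(Y, V)) := by
    rw [← hI]
    change hV.fromSpec (hV.primeIdealOf ⟨η, hη⟩) ∈ Z
    rw [hη']
    exact hηZ
  change (hV.primeIdealOf ⟨η, hη⟩).asIdeal ∈ I.minimalPrimes
  refine ⟨⟨inferInstance, h1⟩, ?_⟩
  rintro q' ⟨hq', hIq'⟩ hle
  have h2 : (⟨q', hq'⟩ : PrimeSpectrum Γ(Y, V)) ∈ PrimeSpectrum.zeroLocus (I : Set Γ(Y, V)) := hIq'
  rw [← hI] at h2
  have h3 : (⟨q', hq'⟩ : PrimeSpectrum Γ(Y, V)) ≤ hV.primeIdealOf ⟨η, hη⟩ := hle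
  rw [PrimeSpectrum.le_iff_specializes] at h3
  have h4 := h3.map hV.fromSpec.continuous
  rw [hη'] at h4
  have h5 := hmax _ h4 h2
  have h6 : (⟨q', hq'⟩ : PrimeSpectrum Γ(Y, V)) = hV.primeIdealOf ⟨η, hη⟩ := by
    apply hV.fromSpec.isOpenEmbedding.injective
    rw [hη', h5]
  rw [← h6]

theorem exists_open_of_finite (F : Set Y) (hF : F.Finite) (y : Y) :
    ∃ V : Y.Opens, y ∈ V ∧ ∀ η ∈ F, η ∈ V → η ⤳ y := by
  have hopen : IsOpen (⋂ η ∈ {η | η ∈ F ∧ ¬ η ⤳ y}, (closure {η} : Set Y)ᶜ) :=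
    (hF.subset (fun η h => h.1)).isOpen_biInter fun η _ => isClosed_closure.isOpen_compl
  refine ⟨⟨_, hopen⟩, ?_, ?_⟩
  · change y ∈ ⋂ η ∈ {η | η ∈ F ∧ ¬ η ⤳ y}, (closure {η} : Set Y)ᶜ
    simp only [Set.mem_iInter]
    rintro η ⟨-, h⟩ hy
    exact h (specializes_iff_mem_closure.2 hy)
  · intro η hη hV
    by_contra hcon
    have hV' : η ∈ ⋂ η ∈ {η | η ∈ F ∧ ¬ η ⤳ y}, (closure {η} : Set Y)ᶜ := hV
    simp only [Set.mem_iInter] at hV'
    exact hV' η ⟨hη, hcon⟩ (subset_closure rfl)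

theorem ringKrullDim_lt [IsLocallyNoetherian Y] {y' y : Y} (h : y' ⤳ y) (hne : y' ≠ y) :
    ringKrullDim (Y.presheaf.stalk y') < ringKrullDim (Y.presheaf.stalk y) := by
  have h1 := Groth.Agent.Divis.StalkPrime.height_eq (primeOf h)
  rw [ptOf_primeOf] at h1
  have h2 := Groth.Agent.Divis.StalkPrime.height_eq (primeOf (specializes_refl y))
  rw [ptOf_primeOf] at h2
  rw [h1, h2]
  have hlt : primeOf h < primeOf (specializes_refl y) := by
    refine lt_of_le_of_ne ?_ (fun e => hne ((primeOf_inj h _).1 e))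
    rw [primeOf_le_iff]
    exact h
  have : (primeOf h).asIdeal < (primeOf (specializes_refl y)).asIdeal := hlt
  exact_mod_cast Ideal.height_strict_mono_of_isPrime this

/-- Induction along proper generizations on a locally Noetherian scheme. -/
theorem wf_gen [IsLocallyNoetherian Y] : WellFounded (fun y' y : Y => y' ⤳ y ∧ y' ≠ y) :=
  Subrelation.wf (r := fun y' y : Y =>
    ringKrullDim (Y.presheaf.stalk y') < ringKrullDim (Y.presheaf.stalk y))
    (fun h => ringKrullDim_lt h.1 h.2) (InvImage.wf _ wellFounded_lt)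

theorem isLocalization_primeOf {y' y : Y} (h : y' ⤳ y) :
    letI := (Y.presheaf.stalkSpecializes h).hom.toAlgebra
    IsLocalization.AtPrime (Y.presheaf.stalk y') (primeOf h).asIdeal := by
  have h1 := isLocalization_stalkSpecializes h
  have e := primeOf_asIdeal h
  convert h1

/-- Membership in a principal ideal after specialization. -/
theorem exists_mul_mem_of_mem {y' y : Y} (h : y' ⤳ y) (a b : Y.presheaf.stalk y)
    (hab : (Y.presheaf.stalkSpecializes h).hom a ∈
      Ideal.span {(Y.presheaf.stalkSpecializes h).hom b}) :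
    ∃ c ∉ (primeOf h).asIdeal, c * a ∈ Ideal.span {b} := by
  let := (Y.presheaf.stalkSpecializes h).hom.toAlgebra
  have hloc : IsLocalization.AtPrime (Y.presheaf.stalk y') (primeOf h).asIdeal :=
    isLocalization_primeOf h
  have h1 : algebraMap (Y.presheaf.stalk y) (Y.presheaf.stalk y') a ∈
      (Ideal.span {b}).map (algebraMap (Y.presheaf.stalk y) (Y.presheaf.stalk y')) := by
    rw [Ideal.map_span, Set.image_singleton]
    exact hab
  rw [IsLocalization.algebraMap_mem_map_algebraMap_iff (primeOf h).asIdeal.primeCompl] at h1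
  obtain ⟨c, hc, hc'⟩ := h1
  exact ⟨c, hc, hc'⟩

theorem nonZeroDivisors_specializes {y' y : Y} (h : y' ⤳ y) {a : Y.presheaf.stalk y}
    (ha : a ∈ nonZeroDivisors (Y.presheaf.stalk y)) :
    (Y.presheaf.stalkSpecializes h).hom a ∈ nonZeroDivisors (Y.presheaf.stalk y') := by
  let := (Y.presheaf.stalkSpecializes h).hom.toAlgebra
  have hloc : IsLocalization.AtPrime (Y.presheaf.stalk y') (primeOf h).asIdeal :=
    isLocalization_primeOf h
  exact IsLocalization.map_nonZeroDivisors_le (primeOf h).asIdeal.primeCompl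
    (Y.presheaf.stalk y') ⟨a, ha, rfl⟩

theorem germ_mem_nonZeroDivisors {U : Y.Opens} (hU : IsAffineOpen U) {y : Y} (hy : y ∈ U)
    {f : Γ(Y, U)} (hf : f ∈ nonZeroDivisors Γ(Y, U)) :
    Y.presheaf.germ U y hy f ∈ nonZeroDivisors (Y.presheaf.stalk y) := by
  let := Y.presheaf.algebra_section_stalk (⟨y, hy⟩ : U)
  have := hU.isLocalization_stalk ⟨y, hy⟩
  exact IsLocalization.map_nonZeroDivisors_le (hU.primeIdealOf ⟨y, hy⟩).asIdeal.primeCompl
      (Y.presheaf.stalk y) ⟨f, hf, rfl⟩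

theorem isLocallyNoetherian_stalk [IsLocallyNoetherian Y] (y : Y) :
    IsNoetherianRing (Y.presheaf.stalk y) := inferInstance

/-- Spreading out of the stalk generators. -/
theorem exists_section [IsLocallyNoetherian Y] (t : ∀ y : Y, Y.presheaf.stalk y)
    (ht : ∀ y, t y ∈ nonZeroDivisors (Y.presheaf.stalk y))
    (hc : ∀ {y' y : Y} (h : y' ⤳ y),
      Ideal.span {(Y.presheaf.stalkSpecializes h).hom (t y)} = Ideal.span {t y'})
    (hZ : IsClosed {y : Y | ¬ IsUnit (t y)}) (y : Y) :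
    ∃ (V : Y.Opens) (_ : y ∈ V) (J : Ideal Γ(Y, V)), ∀ y' (h' : y' ∈ V),
      Ideal.span {t y'} = J.map (Y.presheaf.germ V y' h').hom := by
  obtain ⟨U, hyU, f, hf, hfy⟩ := exists_nzd_section y (t y) (ht y)
  obtain ⟨V', hyV', hV'⟩ := exists_open_of_finite _
    ((finite_socle U.2 f).union (finite_maximal U.2 _ hZ)) y
  -- the ideals agree at all generizations of `y`
  have hgen : ∀ (y' : Y) (h : y' ⤳ y) (hU : y' ∈ U.1),
      Ideal.span {t y'} = Ideal.span {Y.presheaf.germ U.1 y' hU f} := by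
    intro y' h hU
    have h1 := congrArg (Ideal.map (Y.presheaf.stalkSpecializes h).hom) hfy
    rw [Ideal.map_span, Ideal.map_span, Set.image_singleton, Set.image_singleton, hc h] at h1
    rw [← h1]
    congr 2
    exact congr($(Y.presheaf.germ_stalkSpecializes hyU h).hom f)
  have key : ∀ (y' : Y), y' ∈ V' → ∀ hU : y' ∈ U.1,
      Ideal.span {t y'} = Ideal.span {Y.presheaf.germ U.1 y' hU f} := by
    intro y'
    refine (wf_gen (Y := Y)).induction (C := fun y' => y' ∈ V' → ∀ hU : y' ∈ U.1,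
      Ideal.span {t y'} = Ideal.span {Y.presheaf.germ U.1 y' hU f}) y' ?_
    intro y' ih hV hU
    by_contra hne
    have hsp : ∀ (η : Y) (hη : η ⤳ y'), η ≠ y' →
        Ideal.span {(Y.presheaf.stalkSpecializes hη).hom (t y')} =
        Ideal.span {(Y.presheaf.stalkSpecializes hη).hom (Y.presheaf.germ U.1 y' hU f)} := by
      intro η hη hηne
      have h1 := ih η ⟨hη, hηne⟩ (hη.mem_open V'.isOpen hV) (hη.mem_open U.1.isOpen hU)
      rw [hc hη, h1]
      congr 2
      exact congr($(Y.presheaf.germ_stalkSpecializes hU hη).hom f).symm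
    have hprime : ∀ Q : Ideal (Y.presheaf.stalk y'), Q.IsPrime →
        Q ≠ maximalIdeal (Y.presheaf.stalk y') →
        ∃ (η : Y) (hη : η ⤳ y'), η ≠ y' ∧ Q = (primeOf hη).asIdeal := by
      intro Q hQ hQm
      refine ⟨ptOf ⟨Q, hQ⟩, ptOf_specializes _, fun e => hQm ?_, by rw [primeOf_ptOf]⟩
      have h1 : (⟨Q, hQ⟩ : PrimeSpectrum _) = closedPoint _ := by
        rw [← primeOf_ptOf ⟨Q, hQ⟩, ← primeOf_refl]
        exact (primeOf_inj _ _).2 e
      exact congrArg PrimeSpectrum.asIdeal h1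
    have hF : y' ⤳ y := by
      apply hV' y' _ hV
      by_cases hfu : IsUnit (Y.presheaf.germ U.1 y' hU f)
      · right
        have htu : ¬ IsUnit (t y') := by
          intro htu
          apply hne
          rw [Ideal.span_singleton_eq_top.2 htu, Ideal.span_singleton_eq_top.2 hfu]
        refine ⟨hU, htu, fun η hη hηZ => ?_⟩
        by_contra hηne
        have h1 := hsp η hη hηne
        rw [hc hη, Ideal.span_singleton_eq_top.2 (hfu.map _), Ideal.span_singleton_eq_top] at h1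
        exact hηZ h1
      · left
        refine ⟨hU, ?_⟩
        refine Alg.exists_socle (s := t y') (ht y') (germ_mem_nonZeroDivisors U.2 hU hf)
          ((mem_maximalIdeal _).2 hfu) (fun e => hne e.symm) ?_ ?_
        · intro Q hQ hQm
          obtain ⟨η, hη, hηne, rfl⟩ := hprime Q hQ hQm
          apply exists_mul_mem_of_mem
          rw [hsp η hη hηne]
          exact Ideal.mem_span_singleton_self _
        · intro Q hQ hQm
          obtain ⟨η, hη, hηne, rfl⟩ := hprime Q hQ hQm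
          apply exists_mul_mem_of_mem
          rw [← hsp η hη hηne]
          exact Ideal.mem_span_singleton_self _
    exact hne (hgen y' hF hU)
  refine ⟨V' ⊓ U.1, ⟨hyV', hyU⟩,
    Ideal.span {(Y.presheaf.map (homOfLE inf_le_right).op).hom f}, fun y' h' => ?_⟩
  rw [key y' h'.1 h'.2, Ideal.map_span, Set.image_singleton]
  congr 2
  exact congr($(Y.presheaf.germ_res (homOfLE inf_le_right) y' h').hom f).symm

/-- **Effective Cartier divisors from their stalks**, on a locally Noetherian scheme. -/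
theorem exists_effCartier [IsLocallyNoetherian Y] (t : ∀ y : Y, Y.presheaf.stalk y)
    (ht : ∀ y, t y ∈ nonZeroDivisors (Y.presheaf.stalk y))
    (hc : ∀ {y' y : Y} (h : y' ⤳ y),
      Ideal.span {(Y.presheaf.stalkSpecializes h).hom (t y)} = Ideal.span {t y'})
    (hZ : IsClosed {y : Y | ¬ IsUnit (t y)}) :
    ∃ 𝓘 : Y.IdealSheafData, BlowUp.IsEffCartierIdeal 𝓘 ∧
      ∀ y, stalkIdeal 𝓘 y = Ideal.span {t y} := by
  obtain ⟨𝓘, h𝓘⟩ := GlueStalk.exists_idealSheaf_of_local (fun y => Ideal.span {t y})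
    (exists_section t ht hc hZ)
  refine ⟨𝓘, ?_, h𝓘⟩
  rw [isEffCartierIdeal_iff_stalkIdeal]
  exact fun y => ⟨t y, ht y, h𝓘 y⟩

end Groth.Agent.Ega4late.H532.Spread
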